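import Mathlib
import Cfsg.Agent.Lib.Flavell.Chief
import Cfsg.Agent.Lib.KInf.Transport
import Cfsg.Agent.Lib.ZJ.Abstract

/-! Equivariant quadratic pairs, part 3: the fixed points of a coprime action involve `PSL₂(p)`
(helper57). -/

set_option autoImplicit false

namespace H57.EQ
open Cfsg Module H89
open scoped commutatorElement

theorem card_le_two_mul {α β : Type*} [Finite α] (f : α → β) (ι : α → α)
    (h : ∀ a a', f a = f a' → a' = a ∨ a' = ι a) : Nat.card α ≤ 2 * (Set.range f).ncard := by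
  classical
  have := Fintype.ofFinite α
  have h1 := Finset.card_le_mul_card_image (f := f) Finset.univ 2 (by
    intro y hy
    obtain ⟨a, -, rfl⟩ := Finset.mem_image.1 hy
    refine (Finset.card_le_card (t := {a, ι a}) fun b hb => ?_).trans Finset.card_le_two
    simpa using h a b (Finset.mem_filter.1 hb).2.symm)
  rw [Nat.card_eq_fintype_card, ← Finset.card_univ, ← Set.image_univ, ← Finset.coe_univ,
    ← Finset.coe_image, Set.ncard_coe_finset]
  exact h1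

theorem exists_eq_of_odd {α : Type*} [Finite α] (hodd : Odd (Nat.card α)) (f g : α → α) (ι : α → α)
    (hf : ∀ a a', f a = f a' → a' = a ∨ a' = ι a) (hg : ∀ a a', g a = g a' → a' = a ∨ a' = ι a) :
    ∃ a b, f a = g b := by
  by_contra hcon
  push Not at hcon
  have h1 := card_le_two_mul f ι hf
  have h2 := card_le_two_mul g ι hg
  have h3 := Set.ncard_union_eq (s := Set.range f) (t := Set.range g) (Set.disjoint_left.2 (by
    rintro _ ⟨a, rfl⟩ ⟨b, e⟩
    exact hcon a b e.symm))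
  have h4 := Set.ncard_le_card (Set.range f ∪ Set.range g)
  obtain ⟨m, hm⟩ := hodd
  omega

/-- a finite special Jordan algebra without zero divisors has no anticommuting pair -/
theorem jordan {p : ℕ} [hp : Fact p.Prime] (hp2 : p ≠ 2) {E : Type*} [Ring E] [Algebra (ZMod p) E]
    [Finite E] (J : Submodule (ZMod p) E) {e : E} (he : e ∈ J) (hl : ∀ x ∈ J, e * x = x)
    (hr : ∀ x ∈ J, x * e = x) (hJ : ∀ x ∈ J, ∀ y ∈ J, x * y + y * x ∈ J)
    (hz : ∀ x ∈ J, ∀ y ∈ J, x * y = 0 → x = 0 ∨ y = 0) {u v : E} (hu : u ∈ J) (hv : v ∈ J)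
    (h : u * v + v * u = 0) : u = 0 ∨ v = 0 := by
  have h2 : (2 : ZMod p) ≠ 0 := two_ne_zero_of_ringChar (by rwa [ZMod.ringChar_zmod_n])
  have half : ∀ x : E, x + x = 0 → x = 0 := fun x hx =>
    (smul_eq_zero.1 (show (2 : ZMod p) • x = 0 by rwa [two_smul])).resolve_left h2
  by_contra hcon
  push Not at hcon
  obtain ⟨hu0, hv0⟩ := hcon
  have mulJ : ∀ x ∈ J, ∀ y ∈ J, Commute x y → x * y ∈ J := by
    intro x hx y hy c
    have := J.smul_mem (2 : ZMod p)⁻¹ (hJ x hx y hy)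
    rwa [← c.eq, ← two_smul (ZMod p), smul_smul, inv_mul_cancel₀ h2, one_smul] at this
  let F : Submodule (ZMod p) E :=
    { carrier := {x | (x ∈ J ∧ Commute x u ∧ Commute x v) ∧
        ∀ y, (y ∈ J ∧ Commute y u ∧ Commute y v) → Commute x y}
      zero_mem' := ⟨⟨J.zero_mem, Commute.zero_left _, Commute.zero_left _⟩,
        fun _ _ => Commute.zero_left _⟩
      add_mem' := fun ha hb => ⟨⟨J.add_mem ha.1.1 hb.1.1, ha.1.2.1.add_left hb.1.2.1,
        ha.1.2.2.add_left hb.1.2.2⟩, fun y hy => (ha.2 y hy).add_left (hb.2 y hy)⟩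
      smul_mem' := fun c _ ha => ⟨⟨J.smul_mem c ha.1.1, ha.1.2.1.smul_left c, ha.1.2.2.smul_left c⟩,
        fun y hy => (ha.2 y hy).smul_left c⟩ }
  have mulF : ∀ x ∈ F, ∀ y ∈ F, x * y ∈ F := fun x hx y hy =>
    ⟨⟨mulJ x hx.1.1 y hy.1.1 (hx.2 y hy.1), hx.1.2.1.mul_left hy.1.2.1,
      hx.1.2.2.mul_left hy.1.2.2⟩, fun z hz => (hx.2 z hz).mul_left (hy.2 z hz)⟩
  have hvu : v * u = -(u * v) := eq_neg_of_add_eq_zero_right h
  have huv : u * v = -(v * u) := eq_neg_of_add_eq_zero_left h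
  have hU : u * u ∈ F := ⟨⟨mulJ u hu u hu rfl, (Commute.refl u).mul_left (Commute.refl u), by
      change u * u * v = v * (u * u)
      rw [← mul_assoc, hvu, neg_mul, mul_assoc u v, hvu, mul_neg, neg_neg, mul_assoc]⟩,
    fun y hy => hy.2.1.symm.mul_left hy.2.1.symm⟩
  have hV : v * v ∈ F := ⟨⟨mulJ v hv v hv rfl, by
      change v * v * u = u * (v * v)
      rw [← mul_assoc, huv, neg_mul, mul_assoc v u, huv, mul_neg, neg_neg, mul_assoc],
      (Commute.refl v).mul_left (Commute.refl v)⟩,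
    fun y hy => hy.2.2.symm.mul_left hy.2.2.symm⟩
  have hE : e ∈ F := ⟨⟨he, (hl u hu).trans (hr u hu).symm, (hl v hv).trans (hr v hv).symm⟩,
    fun y hy => (hl y hy.1).trans (hr y hy.1).symm⟩
  have sq : ∀ w ∈ J, w ≠ 0 → w * w ∈ F → ∀ a a' : F, (a : E) * a * (w * w) = a' * a' * (w * w) →
      a' = a ∨ a' = -a := by
    intro w hw hw0 hww a a' e1
    have c : (a : E) * a' = a' * a := a.2.2 _ a'.2.1
    have e2 : ((a : E) - a') * (a + a') * (w * w) = 0 := by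
      rw [mul_add, sub_mul, sub_mul, c, add_mul, sub_mul, sub_mul, e1]; abel
    have m1 := F.sub_mem a.2 a'.2
    have m2 := F.add_mem a.2 a'.2
    rcases hz _ (mulF _ m1 _ m2).1.1 _ hww.1.1 e2 with e3 | e3
    · rcases hz _ m1.1.1 _ m2.1.1 e3 with e4 | e4
      · exact Or.inl (Subtype.ext (sub_eq_zero.1 e4).symm)
      · exact Or.inr (Subtype.ext (eq_neg_of_add_eq_zero_right e4))
    · exact absurd ((or_self_iff).1 (hz w hw w hw e3)) hw0
  have hodd : Odd (Nat.card F) := by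
    rw [Module.natCard_eq_pow_finrank (K := ZMod p), Nat.card_zmod]
    exact (hp.out.odd_of_ne_two hp2).pow
  obtain ⟨⟨a, ha⟩, ⟨b, hb⟩, e1⟩ := exists_eq_of_odd hodd
    (fun a : F => (⟨a * a * (u * u), mulF _ (mulF _ a.2 _ a.2) _ hU⟩ : F))
    (fun a : F => (⟨e - a * a * (v * v), F.sub_mem hE (mulF _ (mulF _ a.2 _ a.2) _ hV)⟩ : F))
    (fun a => -a) (fun a a' e => sq u hu hu0 hU a a' (congrArg Subtype.val e))
    (fun a a' e => sq v hv hv0 hV a a' (sub_right_injective (congrArg Subtype.val e)))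
  have e2 : a * a * (u * u) = e - b * b * (v * v) := congrArg Subtype.val e1
  clear e1
  obtain ⟨⟨aJ, au, av⟩, a2⟩ := ha
  obtain ⟨bJ, bu, bv⟩ := hb.1
  have ab : Commute a b := a2 b ⟨bJ, bu, bv⟩
  have m1 := mulJ a aJ u hu au
  have m2 := mulJ b bJ v hv bv
  have hx := J.add_mem m1 m2
  have r1 : ∀ x, u * (a * x) = a * (u * x) := fun x => by rw [← mul_assoc, ← au.eq, mul_assoc]
  have r2 : ∀ x, v * (a * x) = a * (v * x) := fun x => by rw [← mul_assoc, ← av.eq, mul_assoc]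
  have r3 : ∀ x, u * (b * x) = b * (u * x) := fun x => by rw [← mul_assoc, ← bu.eq, mul_assoc]
  have r4 : ∀ x, v * (b * x) = b * (v * x) := fun x => by rw [← mul_assoc, ← bv.eq, mul_assoc]
  have r5 : ∀ x, b * (a * x) = a * (b * x) := fun x => by rw [← mul_assoc, ← ab.eq, mul_assoc]
  have hxx : (a * u + b * v) * (a * u + b * v) = e := by
    simp only [ncr, r1, r2, r3, r4, r5, hvu] at e2 ⊢
    rw [e2]; abel
  have key : ∀ x ∈ J, x * v = v * x → x * u = u * x → x * x = e → a * u + b * v = x → False := by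
    intro x hx c1 c2 c3 e3
    have f1 : (a * u - x) * u = 0 := by
      apply half
      have : u * (a * u + b * v) + (a * u + b * v) * u = u * x + x * u := by rw [e3]
      simp only [ncr, r1, r3, hvu, ← c2] at this ⊢
      linear_combination (norm := abel) this
    have f2 := sub_eq_zero.1 ((hz _ (J.sub_mem m1 hx) u hu f1).resolve_right hu0)
    have f3 : x * v = 0 := by
      apply half
      have : x * v + v * x = 0 := by
        rw [← f2]; simp only [ncr, r2, hvu]; abel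
      rwa [← c1] at this
    apply hv0
    rw [← hl v hv, ← c3, mul_assoc, f3, mul_zero]
  have e4 : (e + (a * u + b * v)) * (e - (a * u + b * v)) = 0 := by
    rw [add_mul, mul_sub, mul_sub, hl e he, hl _ hx, hr _ hx, hxx]; abel
  rcases hz _ (J.add_mem he hx) _ (J.sub_mem he hx) e4 with e5 | e5
  · exact key (-e) (J.neg_mem he) (by rw [neg_mul, mul_neg, hl v hv, hr v hv])
      (by rw [neg_mul, mul_neg, hl u hu, hr u hu]) (by rw [neg_mul_neg, hl e he])
      (eq_neg_of_add_eq_zero_right e5)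
  · exact key e he (by rw [hl v hv, hr v hv]) (by rw [hl u hu, hr u hu]) (hl e he)
      (sub_eq_zero.1 e5).symm

theorem involves_of_ker_le {X C : Type*} [Group X] [Group C] (ψ : X →* C) (N : Subgroup X)
    [N.Normal] (h : ψ.ker ≤ N) : Involves (X ⧸ N) C := by
  refine involves_of_surjective ψ.range ((QuotientGroup.map ψ.ker N (MonoidHom.id X) h).comp
    (QuotientGroup.quotientKerEquivRange ψ).symm.toMonoidHom) ?_
  intro y
  obtain ⟨y, rfl⟩ := QuotientGroup.mk_surjective y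
  refine ⟨QuotientGroup.quotientKerEquivRange ψ (QuotientGroup.mk y), ?_⟩
  rw [MonoidHom.comp_apply, MulEquiv.coe_toMonoidHom, MulEquiv.symm_apply_apply]
  rfl

theorem mem_of_sq_mem {Γ : Type*} [Group Γ] {H : Subgroup Γ} {x : Γ} (ho : Odd (orderOf x))
    (h : x * x ∈ H) : x ∈ H := by
  obtain ⟨m, hm⟩ := ho
  have : x = (x * x) ^ (m + 1) := by
    rw [← sq, ← pow_mul, show 2 * (m + 1) = orderOf x + 1 by omega, pow_succ, pow_orderOf_eq_one,
      one_mul]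
  rw [this]; exact H.pow_mem h _

section
variable {p : ℕ} [hp : Fact p.Prime] {M : Type*} [AddCommGroup M] [Module (ZMod p) M] [Finite M]
  {G : Subgroup (GLm (ZMod p) M)}

theorem exists_weyl (hk : Fk (ZMod p)) {s t a : End (ZMod p) M} (hs : Qd G s) (ht : Qd G t)
    (h : Nop s t) (ha : a ∈ VV G s) (h0 : a ≠ 0) : ∃ a' ∈ VV G t, Nop a a' ∧ ∃ g ∈ G,
      ∀ w ∈ VV G t, cn g w = -(a * w * a) := by
  have q := hs.of_VV ha h0
  obtain ⟨a', h1, h2, h3⟩ := q.norm hk ht (hs.opp_change hk ht (by rw [h.sts]; exact hs.ne) ha h0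
    ht.1.mem_VV ht.ne)
  refine ⟨a', h1, h3, ex a * (ex a')⁻¹ * ex a,
    G.mul_mem (G.mul_mem q.1.mem (G.inv_mem h1.1.mem)) q.1.mem, fun w hw => ?_⟩
  have hw' : w ∈ VV G a' := by rwa [ht.VV_eq h1 h2]
  have e1 := VV_mul h1 hw
  have e2 := VV_mul hw h1
  have e3 := h3.symm.e_left hw'
  have e4 := h3.symm.e_right hw'
  simp only [ncr, e1, z2 e2, add_zero, zero_add] at e3 e4
  simp only [cn, mul_inv_rev, inv_inv, Units.val_mul, ex_val h3.ss, ex_val h3.tt, ex_inv_val h3.ss,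
    ex_inv_val h3.tt, ncr, h3.rules, e1, e2, z2 e2, e3, e4]
  abel

theorem ata_mem (hk : Fk (ZMod p)) {s t a : End (ZMod p) M} (hs : Qd G s) (ht : Qd G t)
    (h : Nop s t) (ha : a ∈ VV G s) : a * t * a ∈ VV G s := by
  by_cases h0 : a = 0
  · rw [h0, mul_zero]; exact zero_mem _
  obtain ⟨a', -, -, g, hg, e⟩ := exists_weyl hk hs ht h ha h0
  have h1 := (ht.1.conj hg).neg
  rw [e t ht.1.mem_VV, neg_neg] at h1
  rw [← hs.VV_eq ha h0]
  exact mem_VV_of_eq ha.1.sq h1 (mul_assoc _ _ _) rfl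

theorem sq_inj (h5 : 5 ≤ p) {s t a b : End (ZMod p) M} (hs : Qd G s) (ht : Qd G t)
    (h : Nop s t) (ha : a ∈ VV G s) (hb : b ∈ VV G s) (e : a * t * a = b * t * b) :
    b = a ∨ b = -a := by
  have hk := fk h5
  have hl : ∀ x ∈ VV G s, s * t * x = x := fun x hx => by
    have := VV_left hx (x := 1 - s * t) (by rw [sub_mul, one_mul, h.sts, sub_self])
    rw [sub_mul, one_mul, sub_eq_zero] at this
    exact this.symm
  have hr : ∀ x ∈ VV G s, x * t * s = x := fun x hx => by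
    have := VV_right hx (x := 1 - t * s) (by rw [mul_sub, mul_one, ← mul_assoc, h.sts, sub_self])
    rw [mul_sub, mul_one, sub_eq_zero, ← mul_assoc] at this
    exact this.symm
  have canc : ∀ x ∈ VV G s, x * t = 0 → x = 0 := fun x hx e => by rw [← hr x hx, e, zero_mul]
  rcases jordan (p := p) (by omega) ((VV G s).map (LinearMap.mulRight (ZMod p) t)) (e := s * t)
    ⟨s, hs.1.mem_VV, rfl⟩ (by
      rintro _ ⟨x, hx, rfl⟩
      rw [LinearMap.mulRight_apply, ← mul_assoc, hl x hx]) (by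
      rintro _ ⟨x, hx, rfl⟩
      rw [LinearMap.mulRight_apply, ← mul_assoc, hr x hx]) (by
      rintro _ ⟨x, hx, rfl⟩ _ ⟨y, hy, rfl⟩
      refine ⟨_, sub_mem (sub_mem (ata_mem hk hs ht h (add_mem hx hy)) (ata_mem hk hs ht h hx))
        (ata_mem hk hs ht h hy), ?_⟩
      simp only [LinearMap.mulRight_apply, ncr]; abel) (by
      rintro _ ⟨x, hx, rfl⟩ _ ⟨y, hy, rfl⟩ e
      simp only [LinearMap.mulRight_apply] at e ⊢
      by_cases h0 : x = 0
      · left; rw [h0, zero_mul]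
      · right
        have := VV_right (hs.mem_VV_symm hx h0) (x := t * (y * t)) (by rw [← mul_assoc, e])
        rwa [← mul_assoc, ← mul_assoc, hl y hy] at this)
    (u := (a + b) * t) (v := (a - b) * t) ⟨_, add_mem ha hb, rfl⟩ ⟨_, sub_mem ha hb, rfl⟩ (by
      have := congrArg (· * t) e
      simp only [ncr] at this ⊢
      rw [this]; abel) with e1 | e1
  · exact Or.inr (eq_neg_of_add_eq_zero_right (canc _ (add_mem ha hb) e1))
  · exact Or.inl (sub_eq_zero.1 (canc _ (sub_mem ha hb) e1)).symm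

/-- a class of `G` covers at least half of a root group -/
theorem card_class (h5 : 5 ≤ p) (hG : NU G) {s a : End (ZMod p) M} (hs : Qd G s) (ha : a ∈ VV G s)
    (h0 : a ≠ 0) : {b | b ∈ VV G s ∧ b ≠ 0}.ncard ≤
      2 * {b | (b ∈ VV G s ∧ b ≠ 0) ∧ ∃ g ∈ G, cn g a = b}.ncard := by
  have hk := fk h5
  have q := hs.of_VV ha h0
  rw [← hs.VV_eq ha h0]
  obtain ⟨t₀, q0, n0⟩ := hG.exists_opp hk q
  obtain ⟨t, v0, t0, h⟩ := q.norm hk q0 n0
  have ht := q0.of_VV v0 t0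
  refine (card_le_two_mul (α := {b | b ∈ VV G a ∧ b ≠ 0}) (fun b => b.1 * t * b.1)
    (fun b => ⟨-b.1, neg_mem b.2.1, neg_ne_zero.2 b.2.2⟩) fun b b' e => ?_).trans
    (Nat.mul_le_mul_left 2 (Set.ncard_le_ncard ?_))
  · rcases sq_inj h5 q ht h b.2.1 b'.2.1 e with e | e
    · exact Or.inl (Subtype.ext e)
    · exact Or.inr (Subtype.ext e)
  · rintro _ ⟨b, rfl⟩
    obtain ⟨-, -, -, g, hg, e⟩ := exists_weyl hk q ht h q.1.mem_VV q.ne
    obtain ⟨-, -, -, g', hg', e'⟩ := exists_weyl hk q ht h b.2.1 b.2.2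
    have e1 := e t ht.1.mem_VV
    have e2 : cn (g' * g⁻¹) a = b.1 * t * b.1 := by
      rw [h.sts] at e1
      have e3 : cn g⁻¹ a = -t := by
        rw [← neg_neg a, ← e1, ← neg_one_smul (ZMod p), cn_smul, cn_inv_cn, neg_one_smul]
      rw [← cn_cn, e3, ← neg_one_smul (ZMod p), cn_smul, e' t ht.1.mem_VV]
      simp
    refine ⟨⟨ata_mem hk q ht h b.2.1, ?_⟩, _, G.mul_mem hg' (G.inv_mem hg), e2⟩
    change b.1 * t * b.1 ≠ 0
    rw [← e2]
    exact fun e => h0 (cn_eq_zero.1 e)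

theorem three_classes (h5 : 5 ≤ p) (hG : NU G) {s a b c : End (ZMod p) M} (hs : Qd G s)
    (ha : a ∈ VV G s) (ha0 : a ≠ 0) (hb : b ∈ VV G s) (hb0 : b ≠ 0) (hc : c ∈ VV G s) (hc0 : c ≠ 0) :
    (∃ g ∈ G, cn g a = b) ∨ (∃ g ∈ G, cn g b = c) ∨ ∃ g ∈ G, cn g a = c := by
  by_contra hcon
  simp only [not_or] at hcon
  obtain ⟨n1, n2, n3⟩ := hcon
  have dj : ∀ x y : End (ZMod p) M, (¬ ∃ g ∈ G, cn g x = y) →
      Disjoint {b | (b ∈ VV G s ∧ b ≠ 0) ∧ ∃ g ∈ G, cn g x = b}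
        {b | (b ∈ VV G s ∧ b ≠ 0) ∧ ∃ g ∈ G, cn g y = b} := by
    intro x y hn
    rw [Set.disjoint_left]
    rintro _ ⟨-, g, hg, rfl⟩ ⟨-, g', hg', e⟩
    exact hn ⟨g'⁻¹ * g, G.mul_mem (G.inv_mem hg') hg, by rw [← cn_cn, ← e, cn_inv_cn]⟩
  have h1 := card_class h5 hG hs ha ha0
  have h2 := card_class h5 hG hs hb hb0
  have h3 := card_class h5 hG hs hc hc0
  have h4 := Set.ncard_union_eq (dj a b n1)
  have h5 := Set.ncard_union_eq (Set.disjoint_union_left.2 ⟨dj a c n3, dj b c n2⟩)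
  have sb : ∀ x : End (ZMod p) M, {b | (b ∈ VV G s ∧ b ≠ 0) ∧ ∃ g ∈ G, cn g x = b} ⊆
      {b | b ∈ VV G s ∧ b ≠ 0} := fun x _ h => h.1
  have h6 := Set.ncard_le_ncard (Set.union_subset (Set.union_subset (sb a) (sb b)) (sb c))
  have h7 : 0 < {b | b ∈ VV G s ∧ b ≠ 0}.ncard := (Set.ncard_pos).2 ⟨a, ha, ha0⟩
  rw [h5, h4] at h6
  omega

theorem two_dvd_card (h5 : 5 ≤ p) (hG : NU G) {r : End (ZMod p) M} (hr : Fam G r) (h0 : r ≠ 0) :
    2 ∣ Nat.card G := by
  obtain ⟨t, ht, h⟩ := exists_nop h5 hG hr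
  obtain ⟨z, hz, hz2, ez⟩ := exists_invol h hr ht
  have : orderOf z = 2 := orderOf_eq_prime (by rw [sq, hz2]) fun e => h0 (by
    have h1 : hv (-1 : ZMod p) (-1) r t * r = r := by rw [← ez, e, Units.val_one, one_mul]
    have h2 : (2 : ZMod p) • r = 0 := by
      simp only [hv, ncr, ncs, h.rules] at h1
      linear_combination (norm := module) -h1
    exact (smul_eq_zero.1 h2).resolve_left (fk h5).two)
  rw [← this]
  exact H1.orderOf_dvd_card_of_mem hz

/-- the fixed points of a coprime action on a quadratic pair involve `PSL₂(p)` -/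
theorem thmF (h5 : 5 ≤ p) (hG : NU G) {R : Subgroup (GLm (ZMod p) M)}
    (hRG : R ≤ Subgroup.normalizer (G : Set (GLm (ZMod p) M)))
    (hcop : (Nat.card R).Coprime (Nat.card G)) (hsolv : Group.IsSolvable R)
    {r : End (ZMod p) M} (hr : Fam G r) (h0 : r ≠ 0) :
    ∃ ψ : SLt (ZMod p) →* ↥(G ⊓ Subgroup.centralizer (R : Set (GLm (ZMod p) M))),
      ψ.ker ≤ Subgroup.center _ := by
  have hk := fk h5
  have hRG' : ∀ ρ ∈ R, cj ρ G = G := fun ρ hρ => cj_eq_self_iff.2 (hRG hρ)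
  have hRp : (Nat.card R).Coprime p := Nat.Coprime.coprime_dvd_right (dvd_card hr h0) hcop
  have hR2 : (Nat.card R).Coprime 2 := Nat.Coprime.coprime_dvd_right (two_dvd_card h5 hG hr h0) hcop
  obtain ⟨s₀, hs₀⟩ := exists_Qd hr h0
  let R₁ : Subgroup (GLm (ZMod p) M) :=
    { carrier := {ρ | ρ ∈ R ∧ ∃ g ∈ G, cn g (cn ρ s₀) = s₀}
      one_mem' := ⟨R.one_mem, 1, G.one_mem, by rw [cn_id, cn_id]⟩
      mul_mem' := by
        rintro a b ⟨ha, g, hg, e⟩ ⟨hb, g', hg', e'⟩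
        refine ⟨R.mul_mem ha hb, g * (a * g' * a⁻¹),
          G.mul_mem hg (H2.conj_mem_of_le_normalizer hRG ha hg'), ?_⟩
        conv_rhs => rw [← e, ← e']
        simp only [cn_cn]
        congr 1
        group
      inv_mem' := by
        rintro a ⟨ha, g, hg, e⟩
        refine ⟨R.inv_mem ha, a⁻¹ * g⁻¹ * a,
          H2.inv_conj_mem_of_le_normalizer hRG ha (G.inv_mem hg), ?_⟩
        conv_lhs => rw [← e]
        simp only [cn_cn]
        rw [show a⁻¹ * g⁻¹ * a * (a⁻¹ * (g * a)) = 1 by group, cn_id] }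
  have hle : R₁ ≤ R := fun _ h => h.1
  have hcl : ∀ ρ ∈ R, ∀ g ∈ G, cj ρ (Rt G s₀) = cj g (Rt G s₀) → ρ ∈ R₁ := by
    intro ρ hρ g hg e
    have hV : ∀ a ∈ VV G s₀, cn g⁻¹ (cn ρ a) ∈ VV G s₀ := by
      intro a ha
      have := VV_cn (vv_cn (hRG' ρ hρ) ha) (G.inv_mem hg)
      rw [cj_rt (hRG' ρ hρ), cj_Rt _ hg] at e
      have e' : VV G (cn g⁻¹ (cn ρ s₀)) = VV G s₀ := by
        apply VV_eq_of_Rt_eq
        rw [← cj_Rt _ (G.inv_mem hg), e, cj_Rt _ (G.inv_mem hg), cn_inv_cn]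
      rwa [e'] at this
    have hne : ∀ a, a ≠ 0 → cn g⁻¹ (cn ρ a) ≠ 0 := fun a ha e =>
      ha (cn_eq_zero.1 (cn_eq_zero.1 e))
    rcases three_classes h5 hG hs₀ hs₀.1.mem_VV hs₀.ne (hV _ hs₀.1.mem_VV) (hne _ hs₀.ne)
      (hV _ (hV _ hs₀.1.mem_VV)) (hne _ (hne _ hs₀.ne)) with ⟨x, hx, e1⟩ | ⟨x, hx, e1⟩ | ⟨x, hx, e1⟩
    · exact ⟨hρ, x⁻¹ * g⁻¹, G.mul_mem (G.inv_mem hx) (G.inv_mem hg), by
        rw [← cn_cn, ← e1, cn_inv_cn]⟩
    · refine ⟨hρ, (ρ⁻¹ * (g * x * g⁻¹) * ρ)⁻¹ * g⁻¹, G.mul_mem (G.inv_mem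
        (H2.inv_conj_mem_of_le_normalizer hRG hρ (G.mul_mem (G.mul_mem hg hx) (G.inv_mem hg))))
        (G.inv_mem hg), ?_⟩
      rw [← cn_cn, ← cn_inv_cn ρ (cn g⁻¹ (cn ρ s₀)), ← cn_cn_inv g (cn ρ (cn g⁻¹ (cn ρ s₀))), ← e1]
      simp only [cn_cn]
      rw [show (ρ⁻¹ * (g * x * g⁻¹) * ρ)⁻¹ * (ρ⁻¹ * (g * (x * (g⁻¹ * ρ)))) = 1 by group, cn_id]
    · refine mem_of_sq_mem (Nat.coprime_two_right.1 (Nat.Coprime.coprime_dvd_left
        (H1.orderOf_dvd_card_of_mem hρ) hR2)) ⟨R.mul_mem hρ hρ, x⁻¹ * g⁻¹ * (ρ * g⁻¹ * ρ⁻¹),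
        G.mul_mem (G.mul_mem (G.inv_mem hx) (G.inv_mem hg))
          (H2.conj_mem_of_le_normalizer hRG hρ (G.inv_mem hg)), ?_⟩
      conv_rhs => rw [← cn_inv_cn x s₀, e1]
      simp only [cn_cn]
      congr 1
      group
  obtain ⟨k, hkG, hfix⟩ := H2.exists_conj_mem_centralizer (A := R₁) (K := G) (x := ex s₀)
    (hle.trans hRG) (H2.coprime_of_le_left hcop hle) (Or.inl (H2.isSolvable_of_le hle hsolv)) (by
      rintro a ⟨ha, g, hg, e⟩
      refine ⟨g, hg, ?_⟩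
      rw [← ex_cn _ hs₀.sq, ← ex_cn _ (fam_cn (hRG' a ha) hs₀.1).1, e])
  have hs := hs₀.conj hkG
  have hfix' : ∀ a ∈ R₁, cn a (cn k s₀) = cn k s₀ := fun a ha => by
    have h1 := hfix a ha
    rw [← ex_cn _ hs₀.sq] at h1
    rw [← dv_ex hs.sq, ← dv_cn, h1, mul_inv_cancel_right]
  have hcl' : ∀ ρ ∈ R, ρ ∉ R₁ → ∀ g ∈ G, cj ρ (Rt G (cn k s₀)) ≠ cj g (Rt G (cn k s₀)) := by
    intro ρ hρ hn g hg e
    rw [← cj_Rt _ hkG] at e
    refine hn (hcl ρ hρ (ρ * k⁻¹ * ρ⁻¹ * (g * k)) (G.mul_mem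
      (H2.conj_mem_of_le_normalizer hRG hρ (G.inv_mem hkG)) (G.mul_mem hg hkG)) ?_)
    rw [← cj_cj _ (g * k), ← cj_cj g, ← e, cj_cj, cj_cj]
    congr 1
    group
  generalize cn k s₀ = s at hs hfix' hcl'
  obtain ⟨t₀, q0, n0⟩ := hG.exists_opp hk hs
  obtain ⟨t₁, v1, -, h₁⟩ := hs.norm hk q0 n0
  obtain ⟨t, ht, h, hft⟩ := exists_fixed_nop hk (H := R₁) (fun a ha => hRG' a ha.1)
    (Nat.Coprime.coprime_dvd_left (Subgroup.card_dvd_of_le hle) hRp) hs.1 hfix' v1.1 h₁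
  have ht' : Qd G t := hs.of_le ht (fun e => hs.ne (by rw [← h.sts, e]; simp)) (by
    conv_lhs => rw [← h.tst]
    exact (rk_mul_le_left _ _).trans (rk_mul_le_right _ _))
  obtain ⟨π, hπ1, hπ2⟩ := exists_transfer (R₁ := R₁) hRG (sup_le (Rt_le s) (Rt_le t))
    fun ρ hρ hn => cm_conj_pair hk hG hs ht' h (hRG' ρ hρ) (hcl' ρ hρ hn)
  obtain ⟨φ, hφ, hx, hy⟩ := h.phi hs.ne
  have hφm : ∀ m, φ m ∈ (Rt G s ⊔ Rt G t) ⊓ Subgroup.centralizer (R₁ : Set (GLm (ZMod p) M)) := by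
    have := eq_top_of_xy (H := ((Rt G s ⊔ Rt G t) ⊓
      Subgroup.centralizer (R₁ : Set (GLm (ZMod p) M))).comap φ) (fun c => by
        rw [Subgroup.mem_comap, hx]
        refine ⟨(fam_sup_left hs.1).2 c, fun a ha => ?_⟩
        rw [← mul_inv_eq_iff_eq_mul, ← ex_cn _ (smul_sq hs.sq c), cn_smul, hfix' a ha]) (fun c => by
        rw [Subgroup.mem_comap, hy]
        refine ⟨(fam_sup_right ht).2 c, fun a ha => ?_⟩
        rw [← mul_inv_eq_iff_eq_mul, ← ex_cn _ (smul_sq ht.sq c), cn_smul, hft a ha])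
    intro m
    exact (this ▸ Subgroup.mem_top m : m ∈ Subgroup.comap φ _)
  refine ⟨(π.codRestrict _ hπ1).comp (φ.codRestrict _ hφm), fun m hm => ?_⟩
  obtain ⟨y, hy, e⟩ := hπ2 ⟨φ m, hφm m⟩
  have e1 : π ⟨φ m, hφm m⟩ = 1 := congrArg Subtype.val hm
  have e2 : φ m = y⁻¹ := eq_inv_of_mul_eq_one_left (e ▸ e1)
  rw [Subgroup.mem_center_iff]
  intro g
  apply hφ
  rw [map_mul, map_mul, e2]
  exact Subgroup.inv_mem _ hy _ (hφm g).1

end

theorem involves_psl {p : ℕ} [hp : Fact p.Prime] {F : Type*} [Field F] [Fintype F]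
    (hF : Fintype.card F = p) {C : Type*} [Group C] (ψ : SLt (ZMod p) →* C)
    (h : ψ.ker ≤ Subgroup.center _) : Involves (Matrix.ProjectiveSpecialLinearGroup (Fin 2) F) C := by
  let e := (ZMod.ringEquivOfPrime F hp.out hF).symm
  have hinj : Function.Injective (Matrix.SpecialLinearGroup.map (n := Fin 2) e.toRingHom) := by
    intro a b hab
    ext i j
    exact e.injective (congrArg (fun m : SLt (ZMod p) => m.1 i j) hab)
  refine involves_of_ker_le (ψ.comp (Matrix.SpecialLinearGroup.map e.toRingHom)) _ fun m hm => ?_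
  rw [Subgroup.mem_center_iff]
  intro g
  apply hinj
  rw [map_mul, map_mul]
  exact Subgroup.mem_center_iff.1 (h hm) _

universe u
variable {Γ : Type u} [Group Γ] [Finite Γ] {p : ℕ} [hp : Fact p.Prime]

theorem chief_F (h5 : 5 ≤ p) {F : Type*} [Field F] [Fintype F] (hF : Fintype.card F = p)
    {G R U V : Subgroup Γ} [hG : G.Normal] (hcop : (Nat.card R).Coprime (Nat.card G))
    (hR : Odd (Nat.card R) → Group.IsSolvable R ∧ ¬ Involves
      (Matrix.ProjectiveSpecialLinearGroup (Fin 2) F) ↥(G ⊓ Subgroup.centralizer (R : Set Γ)))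
    (hU : IsChiefFactor U V) (hUp : IsPGroup p U) {g : Γ} (hg : g ∈ G)
    (hq : ⁅⁅U, Subgroup.zpowers g⁆, Subgroup.zpowers g⁆ ≤ V) : ⁅U, Subgroup.zpowers g⁆ ≤ V := by
  obtain ⟨M, _, _, _, f, h1, h2, h3⟩ := exists_rep hU hUp
  apply h1
  by_contra hne
  have hNU : NU (G.map f) := nu_of fun N h1 h2 h4 => by
    rw [eq_bot_iff, ← h3 G hG]
    exact H1.le_pCoreOf h1 (fun g hg => cj_eq_self_iff.1 (h2 g hg)) h4
  have hr : Fam (G.map f) (dv (f g)) := fam_of_mem (h2 g hq) (by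
    rw [ex_dv (h2 g hq)]; exact ⟨g, hg, rfl⟩)
  have h0 : dv (f g) ≠ 0 := fun e => hne (dv_eq_zero.1 e)
  obtain ⟨hs, hn⟩ := hR (Nat.coprime_two_right.1 (Nat.Coprime.coprime_dvd_right
    ((two_dvd_card h5 hNU hr h0).trans (Subgroup.card_map_dvd G f)) hcop))
  have H : Hyp p G R ⊥ := ⟨Subgroup.le_normalizer_of_normal, hcop, hs, bot_le, IsPGroup.of_bot,
    Subgroup.le_normalizer_of_normal, Subgroup.le_normalizer_of_normal⟩
  have H' := H.map f
  obtain ⟨ψ, hψ⟩ := thmF h5 hNU H'.norm H'.cop H'.solv hr h0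
  refine hn (involves_trans (involves_psl hF ψ hψ) ?_)
  rw [← H2.map_inf_centralizer_of_coprime H.norm hcop (Or.inl hs)]
  exact involves_of_surjective ⊤ ((f.subgroupMap _).comp (Subgroup.subtype ⊤))
    ((f.subgroupMap_surjective _).comp fun x => ⟨⟨x, trivial⟩, rfl⟩)

theorem exists_pow_coprime (x : Γ) : ∃ k, (orderOf (x ^ p ^ k)).Coprime p := by
  obtain ⟨k, m, hm, e⟩ := Nat.exists_eq_pow_mul_and_not_dvd (orderOf_pos x).ne' p hp.out.ne_one
  refine ⟨k, Nat.Coprime.coprime_dvd_left (orderOf_dvd_of_pow_eq_one (n := m) ?_)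
    (hp.out.coprime_iff_not_dvd.2 hm).symm⟩
  rw [← pow_mul, ← e, pow_orderOf_eq_one]

/-- the `ZJ` theorem from stability on chief factors of an overgroup -/
theorem zj_normal (hp2 : p ≠ 2) {G : Subgroup Γ} [hG : G.Normal] (S : Sylow p Γ)
    (hSG : (S : Subgroup Γ) ≤ G)
    (hC : G ⊓ Subgroup.centralizer (pCoreOf p G : Set Γ) ≤ pCoreOf p G)
    (hst : ∀ U V : Subgroup Γ, IsChiefFactor U V → IsPGroup p U → ∀ g ∈ G,
      ⁅⁅U, Subgroup.zpowers g⁆, Subgroup.zpowers g⁆ ≤ V → ⁅U, Subgroup.zpowers g⁆ ≤ V) :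
    (centerThompsonAOf (S : Subgroup Γ)).Normal := by
  have key : ∀ B A : Subgroup Γ, IsPGroup p B → A ≤ S → ⁅⁅B, A⁆, A⁆ = ⊥ → A ≤ chiefCent B := by
    intro B A hB hA hq a ha
    rw [← Subgroup.zpowers_le, le_chiefCent_iff]
    intro U V hUV hU
    have h : Subgroup.zpowers a ≤ A := (Subgroup.zpowers_le).2 ha
    exact hst U V hUV (hB.to_le hU) a (hSG (hA ha))
      ((Subgroup.commutator_mono (Subgroup.commutator_mono hU h) h).trans (hq.le.trans bot_le))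
  have hstab : H25.ZJ.StableFor p (S : Subgroup Γ) := by
    intro B _ hB A hA _ hq a ha
    have := chiefCent_normal B
    have hn := this.map _ (QuotientGroup.mk'_surjective (Subgroup.centralizer (B : Set Γ)))
    refine H1.le_pCore (N := (chiefCent B).map (QuotientGroup.mk' _)) ?_ ⟨a, key B A hB hA hq ha, rfl⟩
    rw [H68.isPGroup_iff_forall]
    rintro _ ⟨x, hx, rfl⟩
    obtain ⟨k, hk⟩ := exists_pow_coprime (p := p) x
    refine ⟨k, ?_⟩
    rw [← map_pow]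
    exact (QuotientGroup.eq_one_iff _).2
      (mem_centralizer_of_mem_chiefCent hB (Subgroup.pow_mem _ hx _) hk)
  have hTn := normal_pCoreOf (p := p) G
  have hTp := H1.isPGroup_pCoreOf (p := p) G
  have h := H25.ZJ.centerThompsonAOf_inf_normal hp2 S le_rfl (fun _ _ _ h => h) hstab _ hTp
  rwa [inf_eq_left.mpr] at h
  have hI := H25.ZJ.centerThompsonAOf_le_self (S : Subgroup Γ)
  have hn := chiefCent_normal (pCoreOf p G)
  refine (le_inf (hI.trans hSG) (key _ _ hTp hI ?_)).trans (H1.le_pCoreOf inf_le_left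
    Subgroup.le_normalizer_of_normal (isPGroup_of_coprime_eq_one fun x hx hxp => ?_))
  · rw [eq_bot_iff]
    refine (Subgroup.commutator_mono (Subgroup.le_normalizer_iff_commutator_le_right.mp
      ((hTp.le_sylow_of_normal S).trans (Subgroup.le_normalizer.trans
        (H25.ZJ.normalizer_le_normalizer_centerThompsonAOf _)))) le_rfl).trans ?_
    exact (Subgroup.commutator_self_eq_bot_iff.mpr (H24.isMulCommutative_inf_centralizer _)).le
  · have h2 := hC ⟨hx.1, mem_centralizer_of_mem_chiefCent hTp hx.2 hxp⟩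
    by_contra hne
    have h3 := hTp.dvd_orderOf (g := ⟨x, h2⟩) (fun h => hne (congrArg Subtype.val h))
    rw [Subgroup.orderOf_mk] at h3
    exact (Nat.Prime.coprime_iff_not_dvd Fact.out).1 hxp.symm h3

end H57.EQ
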